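import Cfsg.Agent.H12.EP.Own
import Cfsg.Agent.H226.EX.Glue
import Cfsg.Agent.H742.EX.Q2Grp
import Cfsg.Agent.KFacts.RgdFiltClass

/-!
# S5745, `T = Sp₆(2)`: the order half (helper548)

`EPS H N e`, `k = 1`, `T ≃* PSp 3 K`, `|K| = 2`: `index_le` (own characteristic count of the two-point stabilisers,
helper12's `EPT.index_own`), so `|G| < 2 ^ 75`; since `1451520 ∣ |G|`, only `F₄(2)` and `³D₄(4)` are left among the
exceptional groups in characteristic 2: `six_ord`.
-/

set_option autoImplicit false

namespace Cfsg.Agent.H548.EPX.SixOrd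

open Subgroup Cfsg Cfsg.Agent.H284 Cfsg.Agent.H209.EPX Cfsg.Agent.H59.EP Cfsg.Agent.H419.EP Cfsg.Agent.H226.EX
  Cfsg.Agent.H742.EX.Q2 Cfsg.Agent.H12.EP.BT Cfsg.Agent.H12.EP Cfsg.Agent.KFacts.RgdFilt

variable {G : Type} [Group G] [Finite G] {H N : Subgroup G} {T : Type} [Group T] {e : N ≃* (Fin 1 → T)}

theorem card_T {K : Type} [Field K] [Fintype K] (hK : Fintype.card K = 2) (i : T ≃* PSp 3 K) : Nat.card T = 1451520 := by
  rw [Nat.card_congr i.toEquiv, card_psp_two hK (by norm_num)]
  decide

theorem card_A {K : Type} [Field K] [Fintype K] (hK : Fintype.card K = 2) (i : T ≃* PSp 3 K) :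
    Nat.card (MulAut T) = 1451520 := by
  have : Fact (Nat.Prime 2) := ⟨Nat.prime_two⟩
  have h1 := Cfsg.Agent.S0814.result (F := K) 2 1 le_rfl (by rw [hK, pow_one]) 3 (by omega) (by omega)
  rw [if_neg (by omega), card_psp_two hK (by omega)] at h1
  rw [aut_congr i, h1]
  decide

theorem card_H (h : EPS H N e) {K : Type} [Field K] [Fintype K] (hK : Fintype.card K = 2) (i : T ≃* PSp 3 K) :
    Nat.card H = 1451520 := by
  have hfT : Finite T := Finite.of_equiv N (e.trans (MulEquiv.funUnique (Fin 1) T)).toEquiv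
  apply Nat.dvd_antisymm
  · rw [← card_A hK i]
    exact card_dvd_aut h
  · rw [← card_T hK i]
    exact dvd_card h

theorem fac {p k m : ℕ} (hp : p.Prime) (hm : ¬ p ∣ m) : (p ^ k * m).factorization p = k := by
  have hm0 : m ≠ 0 := by
    rintro rfl
    exact hm (dvd_zero p)
  rw [Nat.factorization_mul (pow_ne_zero _ hp.ne_zero) hm0, Finsupp.add_apply, hp.factorization_pow,
    Finsupp.single_eq_same, Nat.factorization_eq_zero_of_not_dvd hm, add_zero]

theorem factors : Nat.primeFactors 1451520 = {2, 3, 5, 7} := by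
  rw [show 1451520 = 2 ^ 9 * (3 ^ 4 * (5 * 7)) by norm_num, Nat.primeFactors_mul (by norm_num) (by norm_num),
    Nat.primeFactors_mul (by norm_num) (by norm_num), Nat.primeFactors_mul (by norm_num) (by norm_num),
    Nat.primeFactors_prime_pow (by norm_num) Nat.prime_two, Nat.primeFactors_prime_pow (by norm_num) Nat.prime_three,
    Nat.prime_five.primeFactors, (by norm_num : Nat.Prime 7).primeFactors]
  decide

theorem gals : gal 3 4 + (gal 5 1 + gal 7 1) = 213 := by decide +kernel

theorem galSum_six : galSumNe 2 1451520 = 213 := by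
  have h3 : (1451520 : ℕ).factorization 3 = 4 := by
    have := fac (p := 3) (k := 4) (m := 17920) Nat.prime_three (by norm_num)
    norm_num at this
    exact this
  have h5 : (1451520 : ℕ).factorization 5 = 1 := by
    have := fac (p := 5) (k := 1) (m := 290304) Nat.prime_five (by norm_num)
    norm_num at this
    exact this
  have h7 : (1451520 : ℕ).factorization 7 = 1 := by
    have := fac (p := 7) (k := 1) (m := 207360) (by norm_num) (by norm_num)
    norm_num at this
    exact this
  have he : ({2, 3, 5, 7} : Finset ℕ).erase 2 = {3, 5, 7} := by decide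
  rw [galSumNe, factors, he, Finset.sum_insert (by decide), Finset.sum_insert (by decide), Finset.sum_singleton, h3, h5,
    h7, gals]

/-- **the index bound** -/
theorem index_le [IsSimpleGroup G] (hg : TwoGen.{0}) (h : EPS H N e) {K : Type} [Field K] [Fintype K]
    (hK : Fintype.card K = 2) (i : T ≃* PSp 3 K) : H.index ≤ 17015758818992641 := by
  have : Fact (Nat.Prime 2) := ⟨Nat.prime_two⟩
  have hfK : CharP K 2 := by
    have h1 : (Fintype.card K : K) = 0 := Nat.cast_card_eq_zero K
    rw [hK] at h1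
    exact CharTwo.of_one_ne_zero_of_two_eq_zero one_ne_zero (by exact_mod_cast h1)
  have hTn : ¬ ∀ a b : T, a * b = b * a := fun hc => by
    obtain ⟨a, b, hab⟩ := h.nab
    exact hab (hc a b)
  have hF : HasFilt 2 T := Cfsg.Agent.KFacts.RgdFiltClass.hasFilt_of_PSp
    ⟨K, inferInstance, inferInstance, inferInstance, 3, by omega, by omega, ⟨i⟩⟩
  obtain ⟨N', hS, hN'⟩ := lieSoc_of_hasSoc (hasSoc_of_eps h) h.simple hTn hF
  have hc := card_H h hK i
  have h1 := EPT.index_own inferInstance (ept_of_eps h) hg hS (a := 0) (j := 1) (E := 0)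
    (by
      rw [hN', card_T hK i, hc]
      norm_num)
    (by
      rw [hc]
      norm_num)
    (clsLe_gal 2)
    (by
      rintro ⟨s, hs, h5, hd⟩
      exfalso
      rw [hc] at hd
      have h2 : s ^ 2 ∣ (2 ^ 9 * 3 ^ 4) * 35 := hd
      have h3 : Nat.Coprime (s ^ 2) (2 ^ 9 * 3 ^ 4) := by
        apply Nat.Coprime.mul_right
        · exact Nat.Coprime.pow _ _ ((Nat.coprime_primes hs Nat.prime_two).2 (by omega))
        · exact Nat.Coprime.pow _ _ ((Nat.coprime_primes hs Nat.prime_three).2 (by omega))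
      have h4 := h3.dvd_of_dvd_mul_left h2
      have h6 := Nat.le_of_dvd (by norm_num) h4
      have h7 : s < 6 := by nlinarith
      obtain rfl : s = 5 := by omega
      revert h4
      decide)
  rw [hc, galSum_six] at h1
  norm_num at h1
  exact h1

theorem card_le [IsSimpleGroup G] (hg : TwoGen.{0}) (h : EPS H N e) {K : Type} [Field K] [Fintype K]
    (hK : Fintype.card K = 2) (i : T ≃* PSp 3 K) : Nat.card G ≤ 1451520 * 17015758818992641 ∧ 1451520 ∣ Nat.card G := by
  rw [← H.card_mul_index, card_H h hK i]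
  exact ⟨Nat.mul_le_mul_left _ (index_le hg h hK i), dvd_mul_right _ _⟩

theorem ord_chk : ((List.range 7).all fun f => [Fam.e8, .e7, .e6, .te6, .f4, .g2, .td4, .tf4].all fun F =>
    !(okF F f) || Nat.blt (1451520 * 17015758818992641) (gF F f) || !(Nat.beq (gF F f % 1451520) 0) ||
      (match F with
        | .f4 => Nat.beq f 1
        | .td4 => Nat.beq f 2
        | _ => false)) = true := by decide +kernel

theorem num {F : Fam} {f g : ℕ} (hok : okF F f = true) (hG : zF F (2 ^ f) * g = (2 ^ f) ^ NF F * hF F (2 ^ f))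
    (h1 : ¬ (F = .f4 ∧ f = 1)) (h2 : ¬ (F = .td4 ∧ f = 2)) (hle : g ≤ 1451520 * 17015758818992641)
    (hd : 1451520 ∣ g) : False := by
  by_cases hf : f < 7
  · have h := ord_chk
    rw [List.all_eq_true] at h
    have h3 := h f (List.mem_range.2 hf)
    rw [List.all_eq_true] at h3
    have h4 := h3 F (by cases F <;> simp)
    rw [hok, gF_eq hG, Nat.dvd_iff_mod_eq_zero.1 hd, show Nat.beq 0 0 = true by rfl] at h4
    simp only [Bool.not_true, Bool.false_or, Bool.or_false, Bool.or_eq_true, Nat.blt_eq] at h4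
    rcases h4 with h4 | h4
    · exact absurd h4 (not_lt.2 hle)
    · cases F
      all_goals first
        | exact h1 ⟨rfl, Nat.eq_of_beq_eq_true h4⟩
        | exact h2 ⟨rfl, Nat.eq_of_beq_eq_true h4⟩
        | exact Bool.noConfusion h4
  · have h3 := g_ge (by omega) hG
    have h4 : 98 ≤ (2 * NF F + lF F) * f := by
      have h5 : 14 ≤ 2 * NF F + lF F := by cases F <;> decide
      calc 98 = 14 * 7 := by norm_num
        _ ≤ _ := Nat.mul_le_mul h5 (by omega)
    have h6 : 2 ^ 98 ≤ 2 ^ 10 * g := (Nat.pow_le_pow_right (by norm_num) h4).trans h3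
    norm_num at h6 hle
    omega

/-- **the order half of the row `T = Sp₆(2)`** -/
theorem six_ord [IsSimpleGroup G] (hg : TwoGen.{0}) {F : Fam} {f : ℕ} (hok : okF F f = true) (hG : IsOrd F f G)
    (h1 : ¬ (F = .f4 ∧ f = 1)) (h2 : ¬ (F = .td4 ∧ f = 2)) (h : EPS H N e) {K : Type} [Field K] [Fintype K]
    (hK : Fintype.card K = 2) (i : T ≃* PSp 3 K) : False :=
  num hok hG h1 h2 (card_le hg h hK i).1 (card_le hg h hK i).2

end Cfsg.Agent.H548.EPX.SixOrd
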