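import Cfsg.Agent.H548.EPX.SpSixChk
import Cfsg.Agent.StandardComponent.SpTwoAut

/-!
# `Sp₆(2)`: the numbers of elements of order 3, 5, 7 (helper548, for S5745)

For `T ≃* PSp 3 F`, `|F| = 2`: at most `16352`, `48384`, `207360` elements of order 3, 5, 7 in `T` and in `Aut T`.
-/

set_option autoImplicit false
set_option maxRecDepth 100000

namespace Cfsg.Agent.H548.EPX.SpSix

open Cfsg Cfsg.Agent.H612.Ore
open Cfsg.Agent.SporRec.TwoSp6.Sp (V S card_S)

/-! ### Centralizers -/

theorem chkL_mono {c q p p' : ℕ} (hp : p' ≤ p) : ∀ {L : List ℕ}, chkL c q p L = true → chkL c q p' L = true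
  | [], h => by
    rw [chkL, Nat.ble_eq] at h ⊢
    exact hp.trans h
  | d :: L, h => by
    rw [chkL, Bool.and_eq_true, Bool.and_eq_true, Nat.blt_eq] at h ⊢
    exact ⟨⟨lt_of_le_of_lt hp h.1.1, h.1.2⟩, h.2⟩

theorem chkL_append {c q r : ℕ} : ∀ {p : ℕ} {L M : List ℕ}, chkL c q p L = true → chkL c r q M = true →
    chkL c r p (L ++ M) = true
  | p, [], M, h, h' => by
    rw [chkL, Nat.ble_eq] at h
    exact chkL_mono h h'
  | p, d :: L, M, h, h' => by
    rw [chkL, Bool.and_eq_true, Bool.and_eq_true, Nat.blt_eq] at h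
    rw [List.cons_append, chkL, Bool.and_eq_true, Bool.and_eq_true, Nat.blt_eq]
    exact ⟨h.1, chkL_append h.2 h'⟩

theorem chkL_mem {c q : ℕ} : ∀ {p : ℕ} {L : List ℕ}, chkL c q p L = true → ∀ d ∈ L, p < d ∧ okc c d = true
  | p, [], _, d, hd => absurd hd List.not_mem_nil
  | p, e :: L, h, d, hd => by
    rw [chkL, Bool.and_eq_true, Bool.and_eq_true, Nat.blt_eq] at h
    rcases List.mem_cons.1 hd with rfl | hd
    · exact h.1
    · obtain ⟨h1, h2⟩ := chkL_mem h.2 d hd
      exact ⟨lt_trans h.1.1 h1, h2⟩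

theorem chkL_nodup {c q : ℕ} : ∀ {p : ℕ} {L : List ℕ}, chkL c q p L = true → L.Nodup
  | p, [], _ => List.nodup_nil
  | p, e :: L, h => by
    rw [chkL, Bool.and_eq_true, Bool.and_eq_true, Nat.blt_eq] at h
    exact List.nodup_cons.2 ⟨fun he => lt_irrefl _ (chkL_mem h.2 e he).1, chkL_nodup h.2⟩

theorem rc_eq {x : S} {d : ℕ} (h : spAct.Rep x d) : rc d = spAct.ap x (2 ^ 0) + 64 * (spAct.ap x (2 ^ 1) +
    64 * (spAct.ap x (2 ^ 2) + 64 * (spAct.ap x (2 ^ 3) + 64 * (spAct.ap x (2 ^ 4) + 64 * spAct.ap x (2 ^ 5))))) := by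
  rw [h 0 (by norm_num), h 1 (by norm_num), h 2 (by norm_num), h 3 (by norm_num), h 4 (by norm_num), h 5 (by norm_num)]
  rfl

theorem exists_elt {g : S} {c d : ℕ} (hg : spAct.Rep g c) (h : okc c d = true) : ∃ x : S, spAct.Rep x d ∧ x * g = g * x := by
  rw [okc, Bool.and_eq_true, Bool.and_eq_true] at h
  obtain ⟨x, hx⟩ := spAct.exists_rep h.1.1
  refine ⟨x, hx, spAct.ext fun i hi => ?_⟩
  have h1 := Nat.eq_of_beq_eq_true (List.all_eq_true.1 h.2 i (List.mem_range.2 hi))
  rw [spAct.mul _ _ _ (two_pow_lt hi), spAct.mul _ _ _ (two_pow_lt hi), hg i hi, hx i hi,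
    spAct.ap_eq hx (col_lt _ _ _), spAct.ap_eq hg (col_lt _ _ _)]
  exact h1

/-- lower bound of a centralizer -/
theorem cent_ge {g : S} {c q p : ℕ} {L : List ℕ} (hg : spAct.Rep g c) (h : chkL c q p L = true) :
    L.length ≤ Nat.card (Subgroup.centralizer ({g} : Set S)) := by
  have h1 : ∀ d ∈ L, ∃ x : S, spAct.Rep x d ∧ x * g = g * x := fun d hd => exists_elt hg (chkL_mem h d hd).2
  choose! f hf using h1
  have hinj : Set.InjOn f (L.toFinset : Set ℕ) := by
    intro a ha b hb hab
    rw [Finset.mem_coe, List.mem_toFinset] at ha hb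
    have h2 := rc_eq (hf a ha).1
    have h3 := rc_eq (hf b hb).1
    rw [← hab, ← h2] at h3
    have h4 := (chkL_mem h a ha).2
    have h5 := (chkL_mem h b hb).2
    rw [okc, Bool.and_eq_true, Bool.and_eq_true] at h4 h5
    rw [← Nat.eq_of_beq_eq_true h4.1.2, ← Nat.eq_of_beq_eq_true h5.1.2, h3]
  have h6 : (L.toFinset.image f).card = L.length := by
    rw [Finset.card_image_of_injOn hinj, List.toFinset_card_of_nodup (chkL_nodup h)]
  have h7 : ((L.toFinset.image f : Finset S) : Set S) ⊆ (Subgroup.centralizer ({g} : Set S) : Set S) := by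
    intro x hx
    rw [Finset.mem_coe, Finset.mem_image] at hx
    obtain ⟨d, hd, rfl⟩ := hx
    rw [SetLike.mem_coe, Subgroup.mem_centralizer_singleton_iff]
    exact (hf d (List.mem_toFinset.1 hd)).2
  have h8 := Set.ncard_le_ncard h7 (Set.toFinite _)
  rw [Set.ncard_coe_finset, h6] at h8
  exact h8

theorem ge_A {g : S} (hg : spAct.Rep g 34628452489) : 2160 ≤ Nat.card (Subgroup.centralizer ({g} : Set S)) := by
  have h := cent_ge hg (chkL_append chk_A0 (chkL_append chk_A1 (chkL_append chk_A2 (chkL_append chk_A3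
    (chkL_append chk_A4 (chkL_append chk_A5 (chkL_append chk_A6 chk_A7)))))))
  simp only [List.length_append, length_unp] at h
  exact h

theorem ge_B {g : S} (hg : spAct.Rep g 48623551524) : 648 ≤ Nat.card (Subgroup.centralizer ({g} : Set S)) := by
  have h := cent_ge hg (chkL_append chk_B0 (chkL_append chk_B1 chk_B2))
  simp only [List.length_append, length_unp] at h
  exact h

theorem ge_C {g : S} (hg : spAct.Rep g 21743685001) : 108 ≤ Nat.card (Subgroup.centralizer ({g} : Set S)) := by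
  have h := cent_ge hg chk_C0
  rwa [length_unp] at h

theorem ge_F {g : S} (hg : spAct.Rep g 55952295326) : 30 ≤ Nat.card (Subgroup.centralizer ({g} : Set S)) := by
  have h := cent_ge hg chk_F0
  rwa [length_unp] at h

theorem ge_S {g : S} (hg : spAct.Rep g 22062435514) : 7 ≤ Nat.card (Subgroup.centralizer ({g} : Set S)) := by
  have h := cent_ge hg chk_S0
  rwa [length_unp] at h

/-! ### Classes -/

theorem card_class (y : S) : Set.ncard {x : S | IsConj x y} * Nat.card (Subgroup.centralizer ({y} : Set S)) = 1451520 := by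
  have h1 : (MulAction.stabilizer (ConjAct S) y).index = (MulAction.orbit (ConjAct S) y).ncard :=
    MulAction.index_stabilizer _ _
  have h2 : MulAction.orbit (ConjAct S) y = {x : S | IsConj x y} := by
    ext x
    rw [ConjAct.mem_orbit_conjAct]
    rfl
  have h3 := Subgroup.card_mul_index (MulAction.stabilizer (ConjAct S) y)
  rw [h1, h2, ← Subgroup.nat_card_centralizer_nat_card_stabilizer, mul_comm] at h3
  rw [h3, ← card_S]
  exact Nat.card_congr ConjAct.ofConjAct.toEquiv

/-- the representatives of order `r` -/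
theorem ords : ((List.range 30).all fun i => ((List.range 6).all fun k => itc (reps.getD i 0) 3 (2 ^ k) == 2 ^ k) ==
      (i == 0 || i == 2 || i == 10 || i == 29)) = true ∧
    ((List.range 30).all fun i => ((List.range 6).all fun k => itc (reps.getD i 0) 5 (2 ^ k) == 2 ^ k) ==
      (i == 0 || i == 8)) = true ∧
    ((List.range 30).all fun i => ((List.range 6).all fun k => itc (reps.getD i 0) 7 (2 ^ k) == 2 ^ k) ==
      (i == 0 || i == 20)) = true := by decide +kernel

theorem all_of_pow {x : S} {c r : ℕ} (hx : spAct.Rep x c) (h : x ^ r = 1) :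
    ((List.range 6).all fun k => itc c r (2 ^ k) == 2 ^ k) = true := by
  rw [List.all_eq_true]
  intro k hk
  have hk6 := List.mem_range.1 hk
  have h1 := (ap_pow hx r (two_pow_lt (n := 6) hk6)).1
  rw [h, spAct.one _ (two_pow_lt hk6)] at h1
  exact beq_iff_eq.2 h1.symm

theorem rep_zero {x : S} (hx : spAct.Rep x (reps.getD 0 0)) : x = 1 := by
  refine spAct.ext fun i hi => ?_
  rw [hx i hi, spAct.one _ (two_pow_lt hi)]
  have : ∀ i < 6, col 6 (reps.getD 0 0) i = 2 ^ i := by decide +kernel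
  exact this i hi

theorem exists_cls {g : S} {r : ℕ} (hr : r ≠ 1) (hg : orderOf g = r) : ∃ i < 30, i ≠ 0 ∧
    IsConj g (wd tv (rws.getD i [])) ∧ ((List.range 6).all fun k => itc (reps.getD i 0) r (2 ^ k) == 2 ^ k) = true := by
  obtain ⟨i, hi, h, hh⟩ := exists_rep30 g
  have hc : IsConj g (wd tv (rws.getD i [])) := isConj_iff.2 ⟨h, hh⟩
  refine ⟨i, hi, ?_, hc, all_of_pow (rep_r hi) ?_⟩
  · rintro rfl
    have h1 := rep_zero (rep_r (i := 0) (by norm_num))
    rw [h1, isConj_one_left] at hc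
    rw [hc, orderOf_one] at hg
    exact hr hg.symm
  · rw [← hh, conj_pow, ← hg, pow_orderOf_eq_one, mul_one, mul_inv_cancel]

theorem three_S : Nat.card {x : S // orderOf x = 3} ≤ 16352 := by
  have hsub : {x : S | orderOf x = 3} ⊆ {x | IsConj x (wd tv (rws.getD 2 []))} ∪ ({x | IsConj x (wd tv (rws.getD 10 []))} ∪
      {x | IsConj x (wd tv (rws.getD 29 []))}) := by
    intro x hx
    obtain ⟨i, hi, h0, hc, ha⟩ := exists_cls (r := 3) (by norm_num) hx
    have h1 := List.all_eq_true.1 ords.1 i (List.mem_range.2 hi)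
    rw [ha, beq_iff_eq, eq_comm] at h1
    simp only [Bool.or_eq_true, beq_iff_eq] at h1
    rcases h1 with ((h1 | rfl) | rfl) | rfl
    · exact absurd h1 h0
    · exact Or.inl hc
    · exact Or.inr (Or.inl hc)
    · exact Or.inr (Or.inr hc)
  have h1 := card_class (wd tv (rws.getD 2 []))
  have h2 := card_class (wd tv (rws.getD 10 []))
  have h3 := card_class (wd tv (rws.getD 29 []))
  have g1 := ge_A (rep_r (i := 2) (by norm_num))
  have g2 := ge_C (rep_r (i := 10) (by norm_num))
  have g3 := ge_B (rep_r (i := 29) (by norm_num))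
  have k1 : Set.ncard {x : S | IsConj x (wd tv (rws.getD 2 []))} ≤ 672 := by
    by_contra h
    push Not at h
    have := Nat.mul_le_mul h g1
    omega
  have k2 : Set.ncard {x : S | IsConj x (wd tv (rws.getD 10 []))} ≤ 13440 := by
    by_contra h
    push Not at h
    have := Nat.mul_le_mul h g2
    omega
  have k3 : Set.ncard {x : S | IsConj x (wd tv (rws.getD 29 []))} ≤ 2240 := by
    by_contra h
    push Not at h
    have := Nat.mul_le_mul h g3
    omega
  have h4 := Set.ncard_le_ncard hsub (Set.toFinite _)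
  have h5 := Set.ncard_union_le {x : S | IsConj x (wd tv (rws.getD 2 []))} ({x | IsConj x (wd tv (rws.getD 10 []))} ∪
      {x | IsConj x (wd tv (rws.getD 29 []))})
  have h6 := Set.ncard_union_le {x : S | IsConj x (wd tv (rws.getD 10 []))} {x | IsConj x (wd tv (rws.getD 29 []))}
  have h7 : Nat.card {x : S // orderOf x = 3} = Set.ncard {x : S | orderOf x = 3} := rfl
  omega

theorem five_S : Nat.card {x : S // orderOf x = 5} ≤ 48384 := by
  have hsub : {x : S | orderOf x = 5} ⊆ {x | IsConj x (wd tv (rws.getD 8 []))} := by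
    intro x hx
    obtain ⟨i, hi, h0, hc, ha⟩ := exists_cls (r := 5) (by norm_num) hx
    have h1 := List.all_eq_true.1 ords.2.1 i (List.mem_range.2 hi)
    rw [ha, beq_iff_eq, eq_comm] at h1
    simp only [Bool.or_eq_true, beq_iff_eq] at h1
    rcases h1 with h1 | rfl
    · exact absurd h1 h0
    · exact hc
  have h1 := card_class (wd tv (rws.getD 8 []))
  have g1 := ge_F (rep_r (i := 8) (by norm_num))
  have k1 : Set.ncard {x : S | IsConj x (wd tv (rws.getD 8 []))} ≤ 48384 := by
    by_contra h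
    push Not at h
    have := Nat.mul_le_mul h g1
    omega
  exact (Set.ncard_le_ncard hsub (Set.toFinite _)).trans k1

theorem seven_S : Nat.card {x : S // orderOf x = 7} ≤ 207360 := by
  have hsub : {x : S | orderOf x = 7} ⊆ {x | IsConj x (wd tv (rws.getD 20 []))} := by
    intro x hx
    obtain ⟨i, hi, h0, hc, ha⟩ := exists_cls (r := 7) (by norm_num) hx
    have h1 := List.all_eq_true.1 ords.2.2 i (List.mem_range.2 hi)
    rw [ha, beq_iff_eq, eq_comm] at h1
    simp only [Bool.or_eq_true, beq_iff_eq] at h1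
    rcases h1 with h1 | rfl
    · exact absurd h1 h0
    · exact hc
  have h1 := card_class (wd tv (rws.getD 20 []))
  have g1 := ge_S (rep_r (i := 20) (by norm_num))
  have k1 : Set.ncard {x : S | IsConj x (wd tv (rws.getD 20 []))} ≤ 207360 := by
    by_contra h
    push Not at h
    have := Nat.mul_le_mul h g1
    omega
  exact (Set.ncard_le_ncard hsub (Set.toFinite _)).trans k1

/-! ### Transport -/

universe u v

theorem card_ord_congr {A : Type u} {B : Type v} [Group A] [Group B] (e : A ≃* B) (r : ℕ) :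
    Nat.card {x : A // orderOf x = r} = Nat.card {x : B // orderOf x = r} :=
  Nat.card_congr (e.toEquiv.subtypeEquiv fun x => by
    rw [show (e.toEquiv x : B) = e x from rfl, MulEquiv.orderOf_eq])

section

variable {F : Type v} [Field F] [Fintype F] (hF : Fintype.card F = 2) {T : Type u} [Group T]

include hF

theorem n3 (e : T ≃* Cfsg.PSp 3 F) : Nat.card {x : T // orderOf x = 3} ≤ 16352 := by
  obtain ⟨e'⟩ := Cfsg.Agent.StandardComponent.SpTwoAut.exists_equiv hF
  rw [card_ord_congr (e.trans e')]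
  exact three_S

theorem n5 (e : T ≃* Cfsg.PSp 3 F) : Nat.card {x : T // orderOf x = 5} ≤ 48384 := by
  obtain ⟨e'⟩ := Cfsg.Agent.StandardComponent.SpTwoAut.exists_equiv hF
  rw [card_ord_congr (e.trans e')]
  exact five_S

theorem n7 (e : T ≃* Cfsg.PSp 3 F) : Nat.card {x : T // orderOf x = 7} ≤ 207360 := by
  obtain ⟨e'⟩ := Cfsg.Agent.StandardComponent.SpTwoAut.exists_equiv hF
  rw [card_ord_congr (e.trans e')]
  exact seven_S

/-- the automorphisms are inner -/
theorem aut_equiv (e : T ≃* Cfsg.PSp 3 F) : Nonempty (MulAut T ≃* T) := by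
  obtain ⟨e'⟩ := Cfsg.Agent.StandardComponent.SpTwoAut.exists_equiv hF
  have hinj : Function.Injective (MulAut.conj : S →* MulAut S) := by
    rw [← MonoidHom.ker_eq_bot_iff, eq_bot_iff, ← Cfsg.Agent.StandardComponent.SpTwoAut.center_eq_bot]
    intro x hx
    rw [Subgroup.mem_center_iff]
    intro g
    have h : x * g * x⁻¹ = g := by
      rw [← MulAut.conj_apply, MonoidHom.mem_ker.1 hx]
      rfl
    rw [mul_inv_eq_iff_eq_mul] at h
    exact h.symm
  have hs : Function.Surjective (MulAut.conj : S →* MulAut S) := fun α => by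
    obtain ⟨x, rfl⟩ := Cfsg.Agent.StandardComponent.SpTwoAut.inner α
    exact ⟨x, rfl⟩
  exact ⟨(MulAut.congr (e.trans e')).trans ((MulEquiv.ofBijective _ ⟨hinj, hs⟩).symm.trans (e.trans e').symm)⟩

theorem aut_n3 (e : T ≃* Cfsg.PSp 3 F) : Nat.card {x : MulAut T // orderOf x = 3} ≤ 16352 := by
  obtain ⟨a⟩ := aut_equiv hF e
  exact n3 hF (a.trans e)

theorem aut_n5 (e : T ≃* Cfsg.PSp 3 F) : Nat.card {x : MulAut T // orderOf x = 5} ≤ 48384 := by
  obtain ⟨a⟩ := aut_equiv hF e
  exact n5 hF (a.trans e)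

theorem aut_n7 (e : T ≃* Cfsg.PSp 3 F) : Nat.card {x : MulAut T // orderOf x = 7} ≤ 207360 := by
  obtain ⟨a⟩ := aut_equiv hF e
  exact n7 hF (a.trans e)

end

end Cfsg.Agent.H548.EPX.SpSix
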